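/-
Irreducible modules of extraspecial-type groups and the degree formula `|Q : Z(Q)| = (dim U)^2`,
in characteristic prime to `|Q|`: Burnside's theorem via the trace and orthogonality of
the traces of a transversal.  The application: an extraspecial group admitting a fixed-point-free
element of prime order on a faithful module.
-/
import Cfsg.Agent.Lib.HallHigman.FixedPoints
import Cfsg.Agent.Lib.Coprime.Action
import Cfsg.Prelude.Def_Transfer

set_option autoImplicit false

namespace Cfsg.Agent.Lib.HallHigman.Extraspecial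

open Module Cfsg.Agent.Lib.HallHigman.Irr Cfsg.Agent.Lib.HallHigman.Core
open scoped commutatorElement

section abstract

variable {K U Q : Type*} [Field K] [AddCommGroup U] [Module K U] [FiniteDimensional K U]
  [Group Q]

/-- Schur's lemma over an algebraically closed field. -/
theorem schur [IsAlgClosed K] [Nontrivial U] (σ : Q →* End K U)
    (hirr : ∀ W : Submodule K U, (∀ g, ∀ w ∈ W, σ g w ∈ W) → W = ⊥ ∨ W = ⊤) (A : End K U)
    (hA : ∀ g, A * σ g = σ g * A) : ∃ c : K, A = c • 1 := by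
  obtain ⟨c, hc⟩ := Module.End.exists_eigenvalue A
  refine ⟨c, ?_⟩
  have hinv : ∀ g, ∀ w ∈ A.eigenspace c, σ g w ∈ A.eigenspace c := by
    intro g w hw
    rw [Module.End.mem_eigenspace_iff] at hw ⊢
    have h1 := LinearMap.congr_fun (hA g) w
    simp only [Module.End.mul_apply] at h1
    rw [h1, hw, map_smul]
  rcases hirr _ hinv with h | h
  · exact absurd h hc
  · ext v
    have hv : v ∈ A.eigenspace c := by
      rw [h]
      trivial
    rw [Module.End.mem_eigenspace_iff] at hv
    simpa using hv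

variable [Fintype Q]

/-- The average of a conjugate. -/
theorem sum_conj_eq [IsAlgClosed K] [Nontrivial U] (σ : Q →* End K U)
    (hirr : ∀ W : Submodule K U, (∀ g, ∀ w ∈ W, σ g w ∈ W) → W = ⊥ ∨ W = ⊤)
    (hD : (finrank K U : K) ≠ 0) (A : End K U) :
    ∑ g : Q, σ g * A * σ g⁻¹ =
      (((Fintype.card Q : ℕ) : K) * LinearMap.trace K U A / (finrank K U : K)) • 1 := by
  obtain ⟨c, hc⟩ := schur σ hirr (∑ g : Q, σ g * A * σ g⁻¹) (by
    intro h
    rw [Finset.sum_mul, Finset.mul_sum]
    refine Fintype.sum_equiv (Equiv.mulLeft h⁻¹) _ _ (fun g => ?_)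
    simp only [Equiv.coe_mulLeft, map_mul, map_inv, mul_inv_rev, inv_inv]
    have h1 : σ h⁻¹ * σ h = 1 := by rw [← map_mul]; simp
    have h2 : σ h * σ h⁻¹ = 1 := by rw [← map_mul]; simp
    calc σ g * A * σ g⁻¹ * σ h = σ h * (σ h⁻¹ * σ g) * A * (σ g⁻¹ * σ h) := by
          simp only [← mul_assoc]
          rw [h2, one_mul]
      _ = σ h * (σ h⁻¹ * σ g * A * σ (g⁻¹ * h)) := by
          rw [map_mul σ g⁻¹ h]
          simp only [mul_assoc]
      _ = _ := by
          simp only [map_mul, map_inv, mul_assoc, inv_inv])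
  have htr : LinearMap.trace K U (∑ g : Q, σ g * A * σ g⁻¹) =
      ((Fintype.card Q : ℕ) : K) * LinearMap.trace K U A := by
    rw [map_sum]
    have h1 : ∀ g : Q, LinearMap.trace K U (σ g * A * σ g⁻¹) = LinearMap.trace K U A := by
      intro g
      rw [LinearMap.trace_mul_comm, ← mul_assoc, ← map_mul]
      simp
    rw [Finset.sum_congr rfl (fun g _ => h1 g)]
    simp [Finset.card_univ]
  rw [hc, map_smul, LinearMap.trace_one, smul_eq_mul] at htr
  rw [hc]
  congr 1
  field_simp
  linear_combination htr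

/-- **Burnside's theorem**: the group spans the endomorphism ring. -/
theorem span_eq_top [IsAlgClosed K] [Nontrivial U] (σ : Q →* End K U)
    (hirr : ∀ W : Submodule K U, (∀ g, ∀ w ∈ W, σ g w ∈ W) → W = ⊥ ∨ W = ⊤)
    (hQ : ((Fintype.card Q : ℕ) : K) ≠ 0) (hD : (finrank K U : K) ≠ 0) :
    Submodule.span K (Set.range σ) = ⊤ := by
  have hrank : ∀ (φ : U →ₗ[K] K) (v : U), φ.smulRight v ∈ Submodule.span K (Set.range σ) := by
    intro φ v
    have h1 : ∑ g : Q, φ (σ g⁻¹ v) • σ g =
        (((Fintype.card Q : ℕ) : K) / (finrank K U : K)) • φ.smulRight v := by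
      ext u
      have h2 := LinearMap.congr_fun (sum_conj_eq σ hirr hD (φ.smulRight u)) v
      simp only [LinearMap.sum_apply, Module.End.mul_apply, LinearMap.smul_apply,
        LinearMap.smulRight_apply, map_smul, LinearMap.trace_smulRight, Module.End.one_apply] at h2 ⊢
      rw [h2, smul_smul]
      congr 1
      ring
    have h3 : (((Fintype.card Q : ℕ) : K) / (finrank K U : K)) • φ.smulRight v ∈
        Submodule.span K (Set.range σ) := by
      rw [← h1]
      exact Submodule.sum_mem _ (fun g _ =>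
        Submodule.smul_mem _ _ (Submodule.subset_span ⟨g, rfl⟩))
    have h4 : ((Fintype.card Q : ℕ) : K) / (finrank K U : K) ≠ 0 := div_ne_zero hQ hD
    exact (Submodule.smul_mem_iff _ h4).mp h3
  rw [eq_top_iff]
  intro T _
  let b := Module.finBasis K U
  have hT : T = ∑ i, (b.coord i).smulRight (T (b i)) := by
    ext u
    simp only [LinearMap.sum_apply, LinearMap.smulRight_apply]
    conv_lhs => rw [← b.sum_repr u]
    rw [map_sum]
    simp
  rw [hT]
  exact Submodule.sum_mem _ (fun i _ => hrank _ _)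

/-- The degree formula: if the traces of non-central elements vanish, then
`|Q : Z(Q)| = (dim U)^2`. -/
theorem card_quot_center [IsAlgClosed K] [Nontrivial U] (σ : Q →* End K U)
    (hirr : ∀ W : Submodule K U, (∀ g, ∀ w ∈ W, σ g w ∈ W) → W = ⊥ ∨ W = ⊤)
    (hQ : ((Fintype.card Q : ℕ) : K) ≠ 0) (hD : (finrank K U : K) ≠ 0)
    (htr : ∀ g : Q, g ∉ Subgroup.center Q → LinearMap.trace K U (σ g) = 0) :
    Nat.card (Q ⧸ Subgroup.center Q) = (finrank K U) ^ 2 := by
  classical
  let Z := Subgroup.center Q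
  letI : Fintype (Q ⧸ Z) := Fintype.ofFinite _
  let T : (Q ⧸ Z) → Q := Quotient.out
  have hT : ∀ t : Q ⧸ Z, ((T t : Q) : Q ⧸ Z) = t := fun t => QuotientGroup.out_eq' t
  have h1 : finrank K (End K U) = (finrank K U) ^ 2 := by
    rw [Module.finrank_linearMap, sq]
  apply le_antisymm
  · -- independence
    have hli : LinearIndependent K (fun t : Q ⧸ Z => σ (T t)) := by
      rw [Fintype.linearIndependent_iff]
      intro a ha t₀
      have h2 : ∑ t, a t • (σ (T t) * σ (T t₀)⁻¹) = 0 := by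
        have := congrArg (fun S : End K U => S * σ (T t₀)⁻¹) ha
        simpa [Finset.sum_mul, smul_mul_assoc] using this
      have h3 := congrArg (LinearMap.trace K U) h2
      rw [map_sum, map_zero] at h3
      have h4 : ∀ t ∈ Finset.univ, t ≠ t₀ →
          LinearMap.trace K U (a t • (σ (T t) * σ (T t₀)⁻¹)) = 0 := by
        intro t _ ht
        rw [map_smul, ← map_mul, htr, smul_zero]
        intro hz
        apply ht
        rw [← hT t, ← hT t₀]
        apply (QuotientGroup.eq (s := Z)).mpr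
        have h5 : (T t)⁻¹ * T t₀ = (T t)⁻¹ * (T t * (T t₀)⁻¹)⁻¹ * T t := by group
        rw [h5]
        exact Subgroup.Normal.conj_mem' inferInstance _ (Subgroup.inv_mem _ hz) _
      rw [Finset.sum_eq_single_of_mem t₀ (Finset.mem_univ _) h4] at h3
      rw [map_smul, ← map_mul, mul_inv_cancel, map_one, LinearMap.trace_one, smul_eq_mul] at h3
      exact (mul_eq_zero.mp h3).resolve_right hD
    have h2 := hli.fintype_card_le_finrank
    rw [h1, ← Nat.card_eq_fintype_card] at h2
    exact h2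
  · -- spanning
    have hspan : Submodule.span K (Set.range (fun t : Q ⧸ Z => σ (T t))) = ⊤ := by
      rw [eq_top_iff, ← span_eq_top σ hirr hQ hD, Submodule.span_le]
      rintro _ ⟨g, rfl⟩
      have h2 : (T (g : Q ⧸ Z))⁻¹ * g ∈ Z := (QuotientGroup.eq (s := Z)).mp (hT _)
      obtain ⟨c, hc⟩ := schur σ hirr (σ ((T (g : Q ⧸ Z))⁻¹ * g)) (by
        intro h
        rw [← map_mul, ← map_mul]
        congr 1
        exact ((Subgroup.mem_center_iff.mp h2) h).symm)
      have h3 : σ g = c • σ (T (g : Q ⧸ Z)) := by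
        have h4 : g = T (g : Q ⧸ Z) * ((T (g : Q ⧸ Z))⁻¹ * g) := by group
        conv_lhs => rw [h4]
        rw [map_mul, hc]
        simp
      rw [h3]
      exact Submodule.smul_mem _ _ (Submodule.subset_span ⟨_, rfl⟩)
    have h2 := finrank_range_le_card (R := K) (fun t : Q ⧸ Z => σ (T t))
    rw [Set.finrank, hspan, finrank_top, h1, ← Nat.card_eq_fintype_card] at h2
    exact h2

/-- The order of a group with cyclic centre of prime order containing the derived subgroup, having
an irreducible representation nontrivial on the centre. -/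
theorem card_eq_of_irr [IsAlgClosed K] [Nontrivial U] {q : ℕ} (hqq : q.Prime) (σ : Q →* End K U)
    (hirr : ∀ W : Submodule K U, (∀ g, ∀ w ∈ W, σ g w ∈ W) → W = ⊥ ∨ W = ⊤)
    (hcard : ((Fintype.card Q : ℕ) : K) ≠ 0) (hD : (finrank K U : K) ≠ 0)
    (hQZ : Nat.card (Subgroup.center Q) = q) (hQc : commutator Q = Subgroup.center Q)
    (z₀ : Subgroup.center Q) (hσz₀ : σ z₀.1 ≠ 1) : Nat.card Q = q * (finrank K U) ^ 2 := by
  haveI : Fact q.Prime := ⟨hqq⟩
  have hz₀ : z₀ ≠ 1 := by
    rintro rfl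
    exact hσz₀ (map_one σ)
  have hgen : ∀ z : Subgroup.center Q, z ≠ 1 → z₀ ∈ Subgroup.zpowers z := by
    intro z hz
    exact mem_zpowers_of_prime_card hQZ hz
  have hfaithZ : ∀ z : Subgroup.center Q, z ≠ 1 → σ z.1 ≠ 1 := by
    intro z hz h
    apply hσz₀
    obtain ⟨k, hk⟩ := (isOfFinOrder_of_finite z).mem_powers_iff_mem_zpowers.mpr (hgen z hz)
    rw [← hk]
    simp only [Subgroup.coe_pow, map_pow, h, one_pow]
  have hscal : ∀ z : Subgroup.center Q, ∃ c : K, σ z.1 = c • 1 := by
    intro z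
    refine schur σ hirr _ (fun g => ?_)
    rw [← map_mul, ← map_mul]
    congr 1
    exact (Subgroup.mem_center_iff.mp z.2 g).symm
  have htr : ∀ g : Q, g ∉ Subgroup.center Q → LinearMap.trace K U (σ g) = 0 := by
    intro g hg
    rw [Subgroup.mem_center_iff] at hg
    push Not at hg
    obtain ⟨h, hh⟩ := hg
    have hcz : ⁅h, g⁆ ∈ Subgroup.center Q := by
      rw [← hQc]
      exact Subgroup.commutator_mem_commutator (Subgroup.mem_top _) (Subgroup.mem_top _)
    have hne1 : (⟨⁅h, g⁆, hcz⟩ : Subgroup.center Q) ≠ 1 := by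
      intro h1
      apply hh
      have h2 : ⁅h, g⁆ = 1 := congrArg Subtype.val h1
      rw [commutatorElement_eq_one_iff_mul_comm] at h2
      exact h2
    obtain ⟨c, hc⟩ := hscal ⟨⁅h, g⁆, hcz⟩
    have hc1 : c ≠ 1 := by
      intro h1
      apply hfaithZ _ hne1
      rw [hc, h1, one_smul]
    have e1 : σ h * σ g * σ h⁻¹ = c • σ g := by
      have h2 : h * g * h⁻¹ = ⁅h, g⁆ * g := by
        rw [commutatorElement_def]
        group
      rw [← map_mul, ← map_mul, h2, map_mul]
      have hc' : σ ⁅h, g⁆ = c • 1 := hc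
      rw [hc', smul_mul_assoc, one_mul]
    have e2 : LinearMap.trace K U (σ h * σ g * σ h⁻¹) = LinearMap.trace K U (σ g) := by
      rw [LinearMap.trace_mul_comm, ← mul_assoc, ← map_mul]
      simp
    rw [e1, map_smul, smul_eq_mul] at e2
    have e3 : (c - 1) * LinearMap.trace K U (σ g) = 0 := by
      linear_combination e2
    exact (mul_eq_zero.mp e3).resolve_left (sub_ne_zero.mpr hc1)
  have hmain := card_quot_center σ hirr hcard hD htr
  have h1 := Subgroup.card_mul_index (Subgroup.center Q)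
  rw [Subgroup.index_eq_card, hmain, hQZ] at h1
  exact h1.symm

end abstract

/-- Transfer of `[Q, Q] = Z(Q)` across an isomorphism. -/
theorem commutator_eq_center_congr {A B : Type*} [Group A] [Group B] (e : A ≃* B)
    (h : commutator B = Subgroup.center B) : commutator A = Subgroup.center A := by
  have h1 : (commutator A).map e.toMonoidHom = commutator B := by
    rw [commutator_def, commutator_def, Subgroup.map_commutator,
      Subgroup.map_top_of_surjective _ e.surjective]
  ext a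
  constructor
  · intro ha
    have h2 : e a ∈ commutator B := by
      rw [← h1]
      exact ⟨a, ha, rfl⟩
    rw [h, Subgroup.mem_center_iff] at h2
    rw [Subgroup.mem_center_iff]
    intro g
    apply e.injective
    rw [map_mul, map_mul]
    exact h2 (e g)
  · intro ha
    have h2 : e a ∈ commutator B := by
      rw [h, Subgroup.mem_center_iff]
      intro g
      rw [Subgroup.mem_center_iff] at ha
      have h3 := ha (e.symm g)
      have h4 := congrArg e h3
      rwa [map_mul, map_mul, e.apply_symm_apply] at h4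
    rw [← h1] at h2
    obtain ⟨a', ha', h3⟩ := h2
    have h4 : a' = a := e.injective h3
    rwa [← h4]

section rep

variable {F : Type*} [Field F] {H : Type*} [Group H] {W : Type*} [AddCommGroup W] [Module F W]

/-- An irreducible submodule moved by a central element of `Q`. -/
theorem exists_irr_moving [FiniteDimensional F W] [Finite H] (ρ : H →* End F W) (Q : Subgroup H)
    {z₀ : H} (hzQ : z₀ ∈ Q) (hzc : ∀ g ∈ Q, g * z₀ = z₀ * g) (hne : ρ z₀ ≠ 1)
    (hord : (orderOf z₀ : F) ≠ 0) : ∃ U₁, IsIrr ρ Q U₁ ∧ ∃ u ∈ U₁, ρ z₀ u ≠ u := by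
  classical
  set m := orderOf z₀ with hm
  let T : End F W := ρ z₀
  let S : End F W := ∑ i ∈ Finset.range m, T ^ i
  have hTm : T ^ m = 1 := by
    change (ρ z₀) ^ m = 1
    rw [← map_pow, hm, pow_orderOf_eq_one, map_one]
  have hST : S * (T - 1) = 0 := by
    have := geom_sum_mul T m
    rw [this, hTm, sub_self]
  have hcomm : ∀ h ∈ Q, S * ρ h = ρ h * S := by
    intro h hh
    have h1 : Commute T (ρ h) := by
      change ρ z₀ * ρ h = ρ h * ρ z₀
      rw [← map_mul, ← map_mul, (hzc h hh).symm]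
    have h2 : Commute S (ρ h) := Commute.sum_left _ _ _ (fun i _ => h1.pow_left i)
    exact h2
  let W₀ : Submodule F W := LinearMap.ker S
  have hW₀inv : IsInv ρ Q W₀ := by
    intro h hh w hw
    have hw' : S w = 0 := hw
    change S (ρ h w) = 0
    rw [← Module.End.mul_apply, hcomm h hh, Module.End.mul_apply, hw', map_zero]
  obtain ⟨v, hv⟩ : ∃ v, T v ≠ v := by
    by_contra hall
    push Not at hall
    apply hne
    ext v
    simpa using hall v
  have hW₀ne : W₀ ≠ ⊥ := by
    intro hbot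
    have h1 : T v - v ∈ W₀ := by
      change S (T v - v) = 0
      have h2 := LinearMap.congr_fun hST v
      simpa using h2
    rw [hbot, Submodule.mem_bot] at h1
    exact hv (sub_eq_zero.mp h1)
  let P : Submodule F W → Prop := fun W' => W' ≠ ⊥ ∧ W' ≤ W₀ ∧ IsInv ρ Q W'
  obtain ⟨U₁, hU₁⟩ := exists_minimal_of_wellFoundedLT P ⟨W₀, hW₀ne, le_rfl, hW₀inv⟩
  obtain ⟨h1, h2, h3⟩ := hU₁.1
  refine ⟨U₁, ⟨h1, h3, fun W' hW' hinv => ?_⟩, ?_⟩
  · by_cases h0 : W' = ⊥
    · exact Or.inl h0
    · exact Or.inr (le_antisymm hW' (hU₁.2 ⟨h0, hW'.trans h2, hinv⟩ hW'))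
  · by_contra hall
    push Not at hall
    obtain ⟨u, hu, hu0⟩ := Submodule.exists_mem_ne_zero_of_ne_bot h1
    have h4 : S u = 0 := h2 hu
    apply hu0
    have h5 : ∀ i : ℕ, (T ^ i) u = u := by
      intro i
      induction i with
      | zero => simp
      | succ i ih => rw [pow_succ, Module.End.mul_apply, hall u hu, ih]
    have h6 : S u = (m : F) • u := by
      simp only [S, LinearMap.sum_apply]
      rw [Finset.sum_congr rfl (fun i _ => h5 i)]
      simp [Nat.cast_smul_eq_nsmul]
    rw [h6] at h4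
    exact (smul_eq_zero.mp h4).resolve_left hord

set_option maxHeartbeats 1600000 in
/-- The main theorem: an element `x` of prime order `r` normalising `Q`, with `C_Q(x) = Z(Q)`,
`Q` an extraspecial `q`-group faithful on `W`, without fixed vectors on `W`. -/
theorem of_free [FiniteDimensional F W] [Finite H] {q r : ℕ} [Fact q.Prime] [hrp : Fact r.Prime]
    (hq : (q : F) ≠ 0) (hr : (r : F) ≠ 0) (hqr : q ≠ r) (ρ : H →* End F W) (Q : Subgroup H)
    (hQp : IsPGroup q Q) (hQZ : Nat.card (Subgroup.center Q) = q)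
    (hQc : commutator Q = Subgroup.center Q) (x : H)
    (hx : x ∈ Subgroup.normalizer (Q : Set H)) (hord : orderOf x = r)
    (hC : ∀ g ∈ Q, g * x = x * g → ∀ h ∈ Q, g * h = h * g)
    (hfaith : ∀ g ∈ Q, ρ g = 1 → g = 1) (hfree : ∀ v, ρ x v = v → v = 0) :
    q = 2 ∧ ∃ n : ℕ, r = 2 ^ n + 1 ∧ Nat.card Q = 2 ^ (2 * n + 1) := by
  classical
  have hrpp : r.Prime := hrp.out
  have hqq : q.Prime := Fact.out
  let K := AlgebraicClosure F
  let b := Module.End.baseChangeHom F K W
  let ρ' : H →* End K (TensorProduct F K W) := (b.toMonoidHom).comp ρ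
  let Y := Subgroup.zpowers x
  have hYQ : Y ≤ Subgroup.normalizer (Q : Set H) := Subgroup.zpowers_le.mpr hx
  have hcop : (Nat.card Y).Coprime (Nat.card Q) := by
    obtain ⟨k, hk⟩ := IsPGroup.iff_card.mp hQp
    rw [Nat.card_zpowers, hord, hk]
    exact Nat.Coprime.pow_right _ ((Nat.coprime_primes hrpp hqq).mpr hqr.symm)
  have hsolv : Group.IsSolvable Y := by
    infer_instance
  -- central elements of `Q`
  have hcen : ∀ z : Subgroup.center Q, ∀ g ∈ Q, g * z.1.1 = z.1.1 * g := by
    intro z g hg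
    have h1 := Subgroup.mem_center_iff.mp z.2 ⟨g, hg⟩
    exact congrArg Subtype.val h1
  -- `Q = [Q, x]`
  have hsup := Cfsg.Agent.Lib.Coprime.Action.commutator_sup_fixed hYQ hcop (Or.inl hsolv)
  have hn : Q ⊓ Subgroup.centralizer (Y : Set H) ≤
      Subgroup.normalizer (((⁅Q, Y⁆ : Subgroup H)) : Set H) :=
    inf_le_left.trans (Cfsg.Agent.Lib.Coprime.Action.le_normalizer_commutator_left Q Y)
  have hsplit : ∀ g ∈ Q, ∃ m ∈ ⁅Q, Y⁆, ∃ c ∈ Q, (∀ h ∈ Q, c * h = h * c) ∧ g = m * c := by
    intro g hg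
    rw [← hsup] at hg
    obtain ⟨m, hm, c, hc, rfl⟩ := Cfsg.Agent.Lib.Coprime.Action.exists_mul_of_mem_sup hn hg
    refine ⟨m, hm, c, hc.1, ?_, rfl⟩
    have h1 := Subgroup.mem_centralizer_iff.mp hc.2 x (Subgroup.mem_zpowers x)
    exact hC c hc.1 h1.symm
  have hMle : ⁅Q, Y⁆ ≤ Q := Cfsg.Agent.Lib.Coprime.Action.commutator_le_of_le_normalizer hYQ
  have hcomm_le : ⁅Q, Q⁆ ≤ ⁅Q, Y⁆ := by
    rw [Subgroup.commutator_le]
    intro a ha b hb
    obtain ⟨m, hm, c, hc, hcc, rfl⟩ := hsplit a ha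
    obtain ⟨m', hm', c', hc', hcc', rfl⟩ := hsplit b hb
    have e : ⁅m * c, m' * c'⁆ = m * m' * m⁻¹ * m'⁻¹ := by
      have h1 : c * m' = m' * c := hcc m' (hMle hm')
      have h2 : c * c' = c' * c := hcc c' hc'
      have h3 : c' * m⁻¹ = m⁻¹ * c' := (hcc' m⁻¹ (Q.inv_mem (hMle hm)))
      rw [commutatorElement_def]
      calc m * c * (m' * c') * (m * c)⁻¹ * (m' * c')⁻¹
          = m * (c * m') * c' * c⁻¹ * m⁻¹ * c'⁻¹ * m'⁻¹ := by group
        _ = m * m' * (c * c') * c⁻¹ * m⁻¹ * c'⁻¹ * m'⁻¹ := by rw [h1]; group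
        _ = m * m' * c' * m⁻¹ * c'⁻¹ * m'⁻¹ := by rw [h2]; group
        _ = m * m' * (c' * m⁻¹) * c'⁻¹ * m'⁻¹ := by group
        _ = m * m' * m⁻¹ * m'⁻¹ := by rw [h3]; group
    rw [e]
    exact Subgroup.mul_mem _ (Subgroup.mul_mem _ (Subgroup.mul_mem _ hm hm') (Subgroup.inv_mem _ hm))
      (Subgroup.inv_mem _ hm')
  have hQY : ⁅Q, Y⁆ = Q := by
    apply le_antisymm hMle
    intro g hg
    obtain ⟨m, hm, c, hc, hcc, rfl⟩ := hsplit g hg
    refine Subgroup.mul_mem _ hm (hcomm_le ?_)
    have h1 : (⟨c, hc⟩ : Q) ∈ Subgroup.center Q := by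
      rw [Subgroup.mem_center_iff]
      intro h
      exact Subtype.ext (hcc h.1 h.2).symm
    rw [← hQc] at h1
    have h2 : c ∈ (commutator Q).map Q.subtype := ⟨⟨c, hc⟩, h1, rfl⟩
    rwa [Subgroup.map_subtype_commutator] at h2
  -- a central element
  haveI hnt : Nontrivial (Subgroup.center Q) := by
    rw [← Finite.one_lt_card_iff_nontrivial, hQZ]
    exact hqq.one_lt
  obtain ⟨z₀, hz₀⟩ := exists_ne (1 : Subgroup.center Q)
  have hz₀ne : z₀.1.1 ≠ 1 := by
    intro h
    apply hz₀
    exact Subtype.ext (Subtype.ext h)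
  have hord₀ : orderOf z₀.1.1 = q := by
    have h1 : orderOf z₀ = q := by
      apply orderOf_eq_prime _ hz₀
      rw [← hQZ]
      exact pow_card_eq_one'
    rw [Subgroup.orderOf_coe, Subgroup.orderOf_coe, h1]
  have hρg₀ : ρ z₀.1.1 ≠ 1 := fun h => hz₀ne (hfaith _ z₀.1.2 h)
  have hρ'g₀ : ρ' z₀.1.1 ≠ 1 := by
    intro h
    apply hρg₀
    have h2 : b (ρ z₀.1.1) = b 1 := by
      rw [map_one]
      exact h
    exact LinearMap.baseChangeHom_injective F W K h2
  have hq' : (q : K) ≠ 0 := by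
    have := (algebraMap F K).injective.ne hq
    simpa using this
  have hr' : (r : K) ≠ 0 := by
    have := (algebraMap F K).injective.ne hr
    simpa using this
  obtain ⟨U₁, hU₁, u, hu, hmove⟩ := exists_irr_moving ρ' Q z₀.1.2 (hcen z₀) hρ'g₀
    (by rw [hord₀]; exact hq')
  have hinj : Function.Injective (ρ x - 1 : End F W) := by
    rw [← LinearMap.ker_eq_bot, LinearMap.ker_eq_bot']
    intro v hv
    apply hfree
    have h1 : ρ x v - v = 0 := hv
    exact sub_eq_zero.mp h1
  have hinj' : Function.Injective ((ρ x - 1 : End F W).baseChange K) := by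
    rw [LinearMap.baseChange_eq_ltensor]
    exact Module.Flat.lTensor_preserves_injective_linearMap _ hinj
  have hfree' : ∀ v, ρ' x v = v → v = 0 := by
    intro v hv
    apply hinj'
    rw [map_zero]
    have h1 : (ρ x - 1 : End F W).baseChange K = ρ' x - 1 := by
      change b (ρ x - 1) = b (ρ x) - 1
      rw [map_sub, map_one]
    rw [h1, LinearMap.sub_apply, hv, Module.End.one_apply, sub_self]
  obtain ⟨m, U, hm, hrm, hnc, hU, hxU, hom, hfin⟩ := Semisimple.core_semisimple hq' hr' hqr ρ' Q hQp x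
    hx hord hC hQY hU₁ ⟨z₀.1.1, z₀.1.2, u, hu, hmove⟩ hfree'
  have hq2 : q = 2 := FixedPoints.eq_two_of_eq_pow_add_one hqq hrpp hm hrm
  -- `z₀` moves a vector of `U`
  obtain ⟨u', hu', hmove'⟩ : ∃ u' ∈ U, ρ' z₀.1.1 u' ≠ u' := by
    obtain ⟨f, h0, h1, h2⟩ := hom
    have hinj := hU₁.inj_of_hom h1 h2
    refine ⟨f u, h0 u hu, ?_⟩
    intro h3
    rw [← h1 _ z₀.1.2 u hu] at h3
    apply hmove
    have h4 : f (ρ' z₀.1.1 u - u) = 0 := by
      rw [map_sub, h3, sub_self]
    exact sub_eq_zero.mp (hinj _ (U₁.sub_mem (hU₁.inv _ z₀.1.2 u hu) hu) h4)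
  letI : Fintype Q := Fintype.ofFinite Q
  let σ := resQ ρ' Q U hU.inv
  have hirr := resQ_irr hU
  haveI hUnt : Nontrivial U := Submodule.nontrivial_iff_ne_bot.mpr hU.ne_bot
  have hD : (finrank K U : K) ≠ 0 := by
    rw [hfin]
    push_cast
    exact pow_ne_zero _ hq'
  have hcard : ((Fintype.card Q : ℕ) : K) ≠ 0 := by
    rw [← Nat.card_eq_fintype_card]
    obtain ⟨k, hk⟩ := IsPGroup.iff_card.mp hQp
    rw [hk]
    push_cast
    exact pow_ne_zero _ hq'
  have hσz₀ : σ z₀.1 ≠ 1 := by
    intro h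
    apply hmove'
    have h1 := LinearMap.congr_fun h ⟨u', hu'⟩
    exact congrArg Subtype.val h1
  have hmain := card_eq_of_irr (K := K) (U := U) (Q := Q) hqq σ hirr hcard hD hQZ hQc z₀ hσz₀
  refine ⟨hq2, m, ?_, ?_⟩
  · rw [hrm, hq2]
  · rw [hmain, hfin, hq2]
    ring

end rep

end Cfsg.Agent.Lib.HallHigman.Extraspecial
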